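import Cfsg.Agent.Lib.HJT.Inst
import Cfsg.Agent.S3313
import Cfsg.Agent.S0824
import Cfsg.Agent.Lib.LargeExtra.FStar

/-!
# From the hypotheses of the Hall–Janko type to the framework
-/

set_option autoImplicit false
set_option linter.unusedSectionVars false
set_option linter.unusedVariables false
set_option linter.style.longLine false

namespace Cfsg.Agent.Lib.HJT.Setup

open Subgroup Cfsg.Agent.Lib.HJOrder.Local Cfsg.Agent.Lib.HJOrder.A5 Cfsg.Agent.Lib.HJT
  Cfsg.Agent.Lib.PGroups.Special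

/-- The simple group `Ω₄⁻(2)` is `A₅`. -/
theorem omega_equiv : Nonempty (↥(Cfsg.Omega (ZMod 2) (Cfsg.quadFormMinus 1 (ZMod 2) 1 1)) ≃* AFive) := by
  obtain ⟨φ⟩ := Cfsg.Agent.S0824.result (F := ZMod 2) (by simp [ZMod.card])
  have h1 : (Cfsg.Omega (ZMod 2) (Cfsg.quadFormMinus 1 (ZMod 2) 1 1)).map φ.toMonoidHom = alternatingGroup (Fin 5) := by
    rw [← alternatingGroup.commutator_perm_eq (by simp)]
    unfold Cfsg.Omega
    rw [commutator_def, commutator_def, Subgroup.map_commutator,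
      Subgroup.map_top_of_surjective _ φ.surjective]
  exact ⟨(Subgroup.equivMapOfInjective _ φ.toMonoidHom φ.injective).trans (MulEquiv.subgroupCongr h1)⟩

/-- From the hypotheses to the framework. -/
theorem setup {G : Type*} [Group G] [Finite G] (z : G) (hz : orderOf z = 2)
    (Q : Subgroup (Subgroup.centralizer ({z} : Set G))) [Q.Normal]
    (hF : Cfsg.generalizedFittingSubgroup (Subgroup.centralizer ({z} : Set G)) = Q)
    (hQ : Cfsg.IsExtraspecial 2 Q) (hcard : Nat.card Q = 2 ^ 5)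
    (e : (Subgroup.centralizer ({z} : Set G)) ⧸ Q ≃* Cfsg.Omega (ZMod 2) (Cfsg.quadFormMinus 1 (ZMod 2) 1 1))
    (hnwc : ∃ g : G, (∃ hq : g * z * g⁻¹ ∈ Subgroup.centralizer ({z} : Set G), (⟨g * z * g⁻¹, hq⟩ : Subgroup.centralizer ({z} : Set G)) ∈ Q) ∧ g * z * g⁻¹ ≠ z) :
    ∃ π : ↥(Frame.CC z) →* AFive, Frame.HS z (Q.map (Subgroup.centralizer ({z} : Set G)).subtype) π ∧
      ∃ g : G, g * z * g⁻¹ ∈ Q.map (Subgroup.centralizer ({z} : Set G)).subtype ∧ g * z * g⁻¹ ≠ z := by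
  classical
  set Q' := Q.map (Frame.CC z).subtype with hQ'
  have hQex : Cfsg.IsExtraspecial 2 ↥Q' :=
    Cfsg.Agent.S3313.isExtraspecial_of_equiv (Q.equivMapOfInjective (Frame.CC z).subtype (Frame.CC z).subtype_injective) hQ
  have hF' : (Cfsg.generalizedFittingSubgroup ↥(Frame.CC z)).map (Frame.CC z).subtype = Q' := by rw [hF]
  obtain ⟨hZ, hcent, -⟩ := Cfsg.Agent.Lib.LargeExtra.FStar.fstar_facts hz hF' hQex
  have hzz : z ^ 2 = 1 := by rw [← hz]; exact pow_orderOf_eq_one z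
  have hz1 : z ≠ 1 := by
    rintro rfl
    simp at hz
  have hzp : ∀ x, x ∈ zpowers z → x = 1 ∨ x = z := by
    intro x hx
    have h2 : Nat.card (zpowers z) = 2 := by rw [Nat.card_zpowers, hz]
    exact Cfsg.Agent.Lib.HJOrder.Basic.eq_of_card_two _ h2 hz1 (mem_zpowers z) hx
  have hcen : ∀ x : ↥Q', x ∈ center ↥Q' → (x : G) = 1 ∨ (x : G) = z := by
    intro x hx
    apply hzp
    rw [← hZ]
    exact ⟨x, hx, rfl⟩
  have hQC : Q' ≤ Frame.CC z := by
    rintro _ ⟨a, -, rfl⟩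
    exact a.2
  have hzQ : z ∈ (center ↥Q').map Q'.subtype := by
    rw [hZ]; exact mem_zpowers z
  have hzQ' : z ∈ Q' := by
    obtain ⟨a, -, ha⟩ := hzQ
    rw [← ha]
    exact a.2
  have hL := extraLike_of_isExtraspecial hQex
  have hq : QData Q' z := by
    refine ⟨hzQ', hzz, hz1, ?_, ?_, ?_, ?_, ?_⟩
    · intro x hx
      have := hQC hx
      rw [Subgroup.mem_centralizer_iff] at this
      exact (this z rfl).symm
    · intro x hx
      exact hcen _ (hL.pow_mem ⟨x, hx⟩)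
    · intro x hx y hy
      exact hcen _ (hL.comm_mem ⟨x, hx⟩ ⟨y, hy⟩)
    · intro g hg
      apply hzp
      rw [← hZ, ← hcent, Subgroup.mem_centralizer_iff]
      intro h hh
      exact (hg h hh).symm
    · rw [hQ', Subgroup.card_map_of_injective (Frame.CC z).subtype_injective]
      rw [hcard]
      norm_num
  obtain ⟨ε⟩ := omega_equiv
  let π : ↥(Frame.CC z) →* AFive := ε.toMonoidHom.comp (e.toMonoidHom.comp (QuotientGroup.mk' Q))
  refine ⟨π, ⟨hq, ?_, ?_, ?_⟩, ?_⟩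
  · intro g hg x hx
    obtain ⟨x', hx', rfl⟩ := hx
    have hgC : g ∈ Frame.CC z := Frame.memC.2 hg
    exact ⟨_, (‹Q.Normal›).conj_mem x' hx' ⟨g, hgC⟩, rfl⟩
  · intro a
    obtain ⟨b, hb⟩ := ε.surjective a
    obtain ⟨c, hc⟩ := e.surjective b
    obtain ⟨d, rfl⟩ := QuotientGroup.mk_surjective c
    refine ⟨d, ?_⟩
    change ε (e ((d : ↥(Frame.CC z) ⧸ Q))) = a
    rw [hc, hb]
  · intro c
    change ε (e ((c : ↥(Frame.CC z) ⧸ Q))) = 1 ↔ _
    rw [map_eq_one_iff ε ε.injective, map_eq_one_iff e e.injective, QuotientGroup.eq_one_iff]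
    constructor
    · intro hc
      exact ⟨c, hc, rfl⟩
    · rintro ⟨a, ha, hae⟩
      have : a = c := Subtype.ext hae
      rwa [← this]
  · obtain ⟨g, ⟨hq', hm⟩, hne⟩ := hnwc
    exact ⟨g, ⟨_, hm, rfl⟩, hne⟩

end Cfsg.Agent.Lib.HJT.Setup
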